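import Cfsg.Agent.H287.OC.D4Weyl
import Cfsg.Agent.KFacts.RgdFld.Fld
import Cfsg.Agent.KFacts.RgdKap
import Cfsg.Agent.H76.OC.IndInv

/-!
# S4891 (R12), `D₄`: the characters of order two of `P_J`, `P₁`, `B` (helper287)

* `lamJ` : the sign of `P_J` on the highest root group; `lam1` : the sign of `P₁` on `P₁ / B`; `lamB` : its restriction to `B`;
* they are trivial on `p`-elements, their values on `T` are `et ∘ θ`, `et ∘ α₁`, `et ∘ α₁`;
* they are invariant under the automorphisms fixing the subgroups.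
-/

set_option autoImplicit false
set_option linter.unusedSectionVars false

open Cfsg Cfsg.Lie

namespace Cfsg.Agent.H287.OC

open CoxeterSystem Cfsg.Agent.ChevalleyStructure.CoxeterGeom Cfsg.Agent.Tits.Roots Cfsg.Agent.Tits.Core
  Cfsg.Agent.Tits.Exchange Cfsg.Agent.Tits.RootComb
  Cfsg.Agent.Nodes.Reps Cfsg.Agent.Nodes.BNOf Cfsg.Agent.Nodes.StabComb Cfsg.Agent.Nodes.Bruhat
  Cfsg.Agent.Nodes.LeviDec Cfsg.Agent.Nodes.RGDChev Cfsg.Agent.ChevalleyStructure.CoxeterGeomTypes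
  Cfsg.Agent.KFacts.RgdAut Cfsg.Agent.KFacts.RgdDiag Cfsg.Agent.KFacts.RgdChevCoord Cfsg.Agent.KFacts.RgdField
  Cfsg.Agent.H798.Oc.Sign Cfsg.Agent.KFacts.RgdSL

universe u

/-! ### general facts -/

section gen

variable {G : Type*} [Group G]

theorem map_of_fix {α : MulAut G} {H : Subgroup G} (h : Fix α H) : H.map α.toMonoidHom = H := fix_iff.1 h

/-- `sq` is invariant under automorphisms -/
theorem sq_aut [Finite G] {Q B : Subgroup G} {α : MulAut G} (hQ : Fix α Q) (hB : Fix α B) {x : G} (hx : x ∈ Q)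
    (hx' : α x ∈ Q) : sq Q B ⟨α x, hx'⟩ = sq Q B ⟨x, hx⟩ := by
  rw [sq_apply, sq_apply]
  let f : Q ⧸ B.subgroupOf Q → Q ⧸ B.subgroupOf Q :=
    Quotient.map' (fun y : Q => (⟨α y, (hQ y).2 y.2⟩ : Q)) (by
      intro a b hab
      rw [QuotientGroup.leftRel_apply] at hab ⊢
      rw [Subgroup.mem_subgroupOf] at hab ⊢
      change (α (a : G))⁻¹ * α (b : G) ∈ B
      rw [← map_inv, ← map_mul, hB]
      exact hab)
  have hf : ∀ y : Q, f (QuotientGroup.mk y) = QuotientGroup.mk (⟨α y, (hQ y).2 y.2⟩ : Q) := fun y => rfl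
  have hinj : Function.Injective f := by
    intro a b h
    obtain ⟨a, rfl⟩ := QuotientGroup.mk_surjective a
    obtain ⟨b, rfl⟩ := QuotientGroup.mk_surjective b
    rw [hf, hf, QuotientGroup.eq, Subgroup.mem_subgroupOf] at h
    have h1 : (α (a : G))⁻¹ * α (b : G) ∈ B := h
    rw [← map_inv, ← map_mul, hB] at h1
    rw [QuotientGroup.eq, Subgroup.mem_subgroupOf]
    exact h1
  have hsurj : Function.Surjective f := by
    intro a
    obtain ⟨a, rfl⟩ := QuotientGroup.mk_surjective a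
    have h1 : α.symm (a : G) ∈ Q := (hQ _).1 (by rw [MulEquiv.apply_symm_apply]; exact a.2)
    refine ⟨QuotientGroup.mk ⟨α.symm (a : G), h1⟩, ?_⟩
    rw [hf]
    congr 1
    apply Subtype.ext
    exact MulEquiv.apply_symm_apply α _
  refine (sgn_equiv _ _ (Equiv.ofBijective f ⟨hinj, hsurj⟩) fun o => ?_).symm
  obtain ⟨a, rfl⟩ := QuotientGroup.mk_surjective o
  change f ((⟨x, hx⟩ : Q) • (QuotientGroup.mk a : Q ⧸ B.subgroupOf Q)) = (⟨α x, hx'⟩ : Q) • f (QuotientGroup.mk a)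
  rw [hf]
  change f (QuotientGroup.mk ((⟨x, hx⟩ : Q) * a)) = QuotientGroup.mk ((⟨α x, hx'⟩ : Q) * ⟨α a, (hQ a).2 a.2⟩)
  rw [hf]
  congr 1
  apply Subtype.ext
  exact map_mul α x a

/-- `sg` is invariant under automorphisms -/
theorem sg_aut [Finite G] {V : Subgroup G} {α : MulAut G} (hV : Fix α V) {x : G}
    (hx : x ∈ Subgroup.normalizer (V : Set G)) (hx' : α x ∈ Subgroup.normalizer (V : Set G)) :
    sg V ⟨α x, hx'⟩ = sg V ⟨x, hx⟩ := by
  rw [← sg_map V α x hx (mem_normalizer_map hx)]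
  exact sg_congr (map_of_fix hV).symm rfl _ _

end gen

theorem odd_pow {p : ℕ} [hp : Fact p.Prime] (hp2 : p ≠ 2) (k : ℕ) : Odd (p ^ k) :=
  (hp.out.odd_of_ne_two hp2).pow

/-! ### `P_J` normalises the highest root group -/

theorem sl4 : SL cs4 hp4.isCartan :=
  KFacts.RgdKap.sl_of (fun i j => by fin_cases i <;> fin_cases j <;> decide)
    (fun i j => by fin_cases i <;> fin_cases j <;> decide)

theorem coef_two : ∀ r < 24, 2 ≤ vc r 1 → r = 23 := by decide +kernel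

variable (K : Type u) [Field K] [Finite K]

theorem X_le_norm (p : ℕ) [Fact p.Prime] [CharP K p] {x : Fin 4 → ℤ} (hx : IsRoot cs4 hp4.isCartan x) (h0 : 0 ≤ x 1) :
    X4 K x ≤ Subgroup.normalizer (X4 K th : Set ↥(chevD4.group K)) := by
  have h1 := (R4 K p).le_normalizer (x := x) (S := {th}) hx (fun y hy => by
    rw [Set.mem_singleton_iff] at hy
    subst hy
    refine ⟨root_th, ?_⟩
    by_cases hxt : x = th
    · exact Or.inl hxt
    right
    have hne : x ≠ -th := by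
      rintro rfl
      exact absurd h0 (by decide)
    refine ⟨hne, fun z hz => ?_⟩
    exfalso
    obtain ⟨-, h2⟩ := sl4.btwn hx root_th hxt hne hz
    obtain ⟨r, hr, e⟩ := exists_vc hz.1
    have h3 : 2 ≤ vc r 1 := by
      rw [← e, h2, Pi.add_apply]
      have : th 1 = 2 := by decide
      omega
    have h4 := coef_two r hr h3
    rw [h4, vc_th, h2] at e
    have h5 : x = 0 := by
      have := congrArg (fun v => v - th) e
      simpa using this
    exact hx.ne_zero h5)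
  rwa [KFacts.RgdFld.Layer.Sup_one] at h1

theorem PJ_le_norm (p : ℕ) [Fact p.Prime] [CharP K p] :
    PJ cs4 hp4.isCartan (T4 K) (X4 K) J4 ≤ Subgroup.normalizer (X4 K th : Set ↥(chevD4.group K)) := by
  refine sup_le (sup_le ?_ ?_) ?_
  · intro t ht
    rw [mem_normalizer_iff_cj]
    exact (R4 K p).tor th root_th t ht
  · refine RGD.Sup_le fun x hx => X_le_norm K p hx.1 ?_
    rw [hx.2 1 (by decide)]
  · exact RGD.Sup_le fun x hx => X_le_norm K p hx.1 (hx.2.1 1)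

/-! ### the characters -/

variable {K}

/-- the sign on the highest root group -/
noncomputable def lamJ (K : Type u) [Field K] [Finite K] (p : ℕ) [Fact p.Prime] [CharP K p] :
    ↥(PJ cs4 hp4.isCartan (T4 K) (X4 K) J4) →* ℂˣ :=
  sC.comp ((sg (X4 K th)).comp (Subgroup.inclusion (PJ_le_norm K p)))

theorem lamJ_p {p : ℕ} [Fact p.Prime] [CharP K p] (hp2 : p ≠ 2) :
    ∀ x k, x ^ p ^ k = 1 → lamJ K p x = 1 := by
  intro x k hx
  unfold lamJ
  rw [MonoidHom.comp_apply, MonoidHom.comp_apply, sg_of_odd _ _ (odd_pow hp2 k) (by rw [← map_pow, hx, map_one]), map_one]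

theorem lamJ_T {p : ℕ} [Fact p.Prime] [CharP K p] : ∀ t ∈ T4 K, ∀ h, lamJ K p ⟨t, h⟩ = sC (et K (ch hp4 (vc 23) t)) := by
  intro t ht h
  unfold lamJ
  rw [MonoidHom.comp_apply, MonoidHom.comp_apply, vc_th]
  congr 1
  exact sg_root hp4 cs4 p root_th ht _

theorem lamJ_aut {p : ℕ} [Fact p.Prime] [CharP K p] {α : MulAut ↥(chevD4.group K)} (hX : Fix α (X4 K th)) {x : ↥(chevD4.group K)}
    (hx : x ∈ PJ cs4 hp4.isCartan (T4 K) (X4 K) J4) (hx' : α x ∈ PJ cs4 hp4.isCartan (T4 K) (X4 K) J4) :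
    lamJ K p ⟨α x, hx'⟩ = lamJ K p ⟨x, hx⟩ := by
  unfold lamJ
  rw [MonoidHom.comp_apply, MonoidHom.comp_apply, MonoidHom.comp_apply, MonoidHom.comp_apply]
  congr 1
  exact sg_aut hX (PJ_le_norm K p hx) (PJ_le_norm K p hx')

/-- the sign on the panel -/
noncomputable def lam1 (K : Type u) [Field K] [Finite K] : ↥(PJ cs4 hp4.isCartan (T4 K) (X4 K) {1}) →* ℂˣ :=
  sC.comp (sq (PJ cs4 hp4.isCartan (T4 K) (X4 K) {1}) (RGD.B cs4 hp4.isCartan (T4 K) (X4 K)))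

theorem lam1_p {p : ℕ} [Fact p.Prime] (hp2 : p ≠ 2) : ∀ x k, x ^ p ^ k = 1 → lam1 K x = 1 := by
  intro x k hx
  unfold lam1
  rw [MonoidHom.comp_apply, sq_of_odd _ _ _ (odd_pow hp2 k) hx, map_one]

theorem lam1_aut {α : MulAut ↥(chevD4.group K)} (hQ : Fix α (PJ cs4 hp4.isCartan (T4 K) (X4 K) {1}))
    (hB : Fix α (RGD.B cs4 hp4.isCartan (T4 K) (X4 K))) {x : ↥(chevD4.group K)}
    (hx : x ∈ PJ cs4 hp4.isCartan (T4 K) (X4 K) {1}) (hx' : α x ∈ PJ cs4 hp4.isCartan (T4 K) (X4 K) {1}) :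
    lam1 K ⟨α x, hx'⟩ = lam1 K ⟨x, hx⟩ := by
  unfold lam1
  rw [MonoidHom.comp_apply, MonoidHom.comp_apply, sq_aut hQ hB hx hx']

section panel

variable {I W Y : Type*} [Fintype I] [DecidableEq I] [Group W] [Group Y] {M : CoxeterMatrix I}
  {cs : CoxeterSystem M W} {A : I → I → ℤ} {h : IsCartan M A} {p : ℕ} {T : Subgroup Y} {n : I → Y}
  {X : (I → ℤ) → Subgroup Y} (R : RGD cs h p T n X)

include R

/-- the sign on the panel `P_i / B` is the sign on the root group `X_i` -/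
theorem sq_panel [Finite W] [Finite Y] (i : I) {t : Y} (ht : t ∈ T) (h1 : t ∈ PJ cs h T X {i})
    (h2 : t ∈ Subgroup.normalizer (X (sr i) : Set Y)) :
    sq (PJ cs h T X {i}) (RGD.B cs h T X) ⟨t, h1⟩ = sg (X (sr i)) ⟨t, h2⟩ := by
  have hXB : X (sr i) ≤ RGD.B cs h T X := RGD.X_le_B (isRoot_sr cs h i) (sr_nonneg i)
  have hn : n i ∈ PJ cs h T X {i} := LJ_le_PJ (n_mem_LJ R (Set.mem_singleton i))
  refine sq_eq_sg (n := n i) B_le_PJ hXB hn ?_ ?_ ?_ h2 (RGD.T_le_B ht) ?_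
  · intro g hg
    obtain ⟨w, hw, hc⟩ := (mem_PJ_iff_cell R).1 hg
    rcases mem_WJ_singleton hw with rfl | rfl
    · exact Or.inl hc.mem_of_one
    right
    obtain ⟨b₁, hb₁, k, hk, b₂, hb₂, rfl⟩ := hc
    obtain ⟨v, hv, u, hu, s, hs, rfl⟩ := R.mem_B' i hb₁
    refine ⟨u, hu, ?_⟩
    have hks : (n i)⁻¹ * (s * k) ∈ T := by
      have h3 := (rp_simple cs R.nsys i)
      have h4 : Rp cs R.nsys (1 * cs.simple i) (s * k) := (rp_of_mem hs).mul hk
      rw [one_mul] at h4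
      exact h3.unique h4
    have hv' : u⁻¹ * v * u ∈ RGD.Sup X (RGD.PosNe cs h i) :=
      (Subgroup.mem_normalizer_iff''.1 (R.X_le_normalizer_V i hu) v).1 hv
    have hv'' : (n i)⁻¹ * (u⁻¹ * v * u) * n i ∈ RGD.Sup X (RGD.PosNe cs h i) := by
      have h5 : u⁻¹ * v * u ∈ cj (n i) (RGD.Sup X (RGD.PosNe cs h i)) := by rw [R.cj_n_V i]; exact hv'
      exact mem_cj.1 h5
    have hle : RGD.Sup X (RGD.PosNe cs h i) ≤ RGD.B cs h T X :=
      le_trans (RGD.Sup_mono fun (x : I → ℤ) (hx : x ∈ RGD.PosNe cs h i) => (⟨hx.1, hx.2.1⟩ : x ∈ RGD.Pos cs h)) RGD.U_le_B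
    refine ⟨((n i)⁻¹ * (u⁻¹ * v * u) * n i) * ((n i)⁻¹ * (s * k)) * b₂,
      mul_mem (mul_mem (hle hv'') (RGD.T_le_B hks)) hb₂, by group⟩
  · intro x hx hB
    have h3 : Rp cs R.nsys (cs.simple i) (n i)⁻¹ := by
      have h4 := (rp_simple cs R.nsys i).inv
      rwa [cs.inv_simple] at h4
    exact eq_one_of_conj_mem_B R hx h3 (by rwa [inv_inv])
  · intro hB
    have h5 := R.eq_one_of_mem_B (rp_simple cs R.nsys i) hB
    exact simple_ne_one i h5
  · exact RGD.T_le_B (conj_T R (rp_simple cs R.nsys i) ht)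

/-- `P_J` is monotone in `J` -/
theorem PJ_mono [Finite W] {J J' : Set I} (hJ : J ⊆ J') : PJ cs h T X J ≤ PJ cs h T X J' := by
  intro x hx
  obtain ⟨w, hw, hc⟩ := (mem_PJ_iff_cell R).1 hx
  exact (mem_PJ_iff_cell R).2 ⟨w, WJ_mono cs hJ hw, hc⟩

theorem PJ_empty [Finite W] : PJ cs h T X ∅ = RGD.B cs h T X := by
  apply le_antisymm
  · intro x hx
    obtain ⟨w, hw, hc⟩ := (mem_PJ_iff_cell R).1 hx
    rw [WJ_empty hw] at hc
    exact hc.mem_of_one
  · exact B_le_PJ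

end panel

theorem simple14 : chevD4.simple 1 = 14 := by decide +kernel

theorem vc14 : vc 14 = sr 1 := by
  have h := vec_simple hp4 (1 : Fin 4)
  rw [show chevD4.simple ((1 : Fin 4) : ℕ) = 14 from simple14] at h
  exact h

theorem lam1_T {p : ℕ} [Fact p.Prime] [CharP K p] : ∀ t ∈ T4 K, ∀ h, lam1 K ⟨t, h⟩ = sC (et K (ch hp4 (vc 14) t)) := by
  intro t ht h
  unfold lam1
  rw [MonoidHom.comp_apply, vc14]
  congr 1
  have hn : t ∈ Subgroup.normalizer (X4 K (sr 1) : Set ↥(chevD4.group K)) := by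
    rw [mem_normalizer_iff_cj]
    exact (R4 K p).tor _ (isRoot_sr cs4 hp4.isCartan 1) t ht
  rw [sq_panel (R4 K p) 1 ht h hn]
  exact sg_root hp4 cs4 p (isRoot_sr cs4 hp4.isCartan 1) ht hn

/-- the restriction to `B` -/
noncomputable def lamB (K : Type u) [Field K] [Finite K] (p : ℕ) [Fact p.Prime] [CharP K p] :
    ↥(PJ cs4 hp4.isCartan (T4 K) (X4 K) ∅) →* ℂˣ :=
  (lam1 K).comp (Subgroup.inclusion (PJ_mono (R4 K p) (Set.empty_subset {1})))

theorem lamB_p {p : ℕ} [Fact p.Prime] [CharP K p] (hp2 : p ≠ 2) : ∀ x k, x ^ p ^ k = 1 → lamB K p x = 1 := by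
  intro x k hx
  unfold lamB
  rw [MonoidHom.comp_apply]
  exact lam1_p hp2 _ k (by rw [← map_pow, hx, map_one])

theorem lamB_T {p : ℕ} [Fact p.Prime] [CharP K p] : ∀ t ∈ T4 K, ∀ h, lamB K p ⟨t, h⟩ = sC (et K (ch hp4 (vc 14) t)) := by
  intro t ht h
  unfold lamB
  rw [MonoidHom.comp_apply]
  exact lam1_T (p := p) t ht _

theorem lamB_aut {p : ℕ} [Fact p.Prime] [CharP K p] {α : MulAut ↥(chevD4.group K)}
    (hQ : Fix α (PJ cs4 hp4.isCartan (T4 K) (X4 K) {1}))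
    (hB : Fix α (RGD.B cs4 hp4.isCartan (T4 K) (X4 K))) {x : ↥(chevD4.group K)}
    (hx : x ∈ PJ cs4 hp4.isCartan (T4 K) (X4 K) ∅) (hx' : α x ∈ PJ cs4 hp4.isCartan (T4 K) (X4 K) ∅) :
    lamB K p ⟨α x, hx'⟩ = lamB K p ⟨x, hx⟩ := by
  unfold lamB
  rw [MonoidHom.comp_apply, MonoidHom.comp_apply]
  exact lam1_aut hQ hB _ _

/-- the three induced characters -/
theorem inner_JJ [Fintype ↥(chevD4.group K)] (h2 : (2 : K) ≠ 0) {p : ℕ} [Fact p.Prime] [CharP K p] (hp2 : p ≠ 2) :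
    classInner (indFun (PJ cs4 hp4.isCartan (T4 K) (X4 K) J4) fun t => (lamJ K p t : ℂ))
      (indFun (PJ cs4 hp4.isCartan (T4 K) (X4 K) J4) fun t => (lamJ K p t : ℂ)) = 5 :=
  count5 h2 p (lamJ_p hp2) lamJ_T

theorem inner_JB [Fintype ↥(chevD4.group K)] (h2 : (2 : K) ≠ 0) {p : ℕ} [Fact p.Prime] [CharP K p] (hp2 : p ≠ 2) :
    classInner (indFun (PJ cs4 hp4.isCartan (T4 K) (X4 K) J4) fun t => (lamJ K p t : ℂ))
      (indFun (PJ cs4 hp4.isCartan (T4 K) (X4 K) ∅) fun t => (lamB K p t : ℂ)) = 8 :=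
  count8 h2 p (lamJ_p hp2) (lamB_p hp2) lamJ_T lamB_T

theorem inner_J1 [Fintype ↥(chevD4.group K)] (h2 : (2 : K) ≠ 0) {p : ℕ} [Fact p.Prime] [CharP K p] (hp2 : p ≠ 2) :
    classInner (indFun (PJ cs4 hp4.isCartan (T4 K) (X4 K) J4) fun t => (lamJ K p t : ℂ))
      (indFun (PJ cs4 hp4.isCartan (T4 K) (X4 K) {1}) fun t => (lam1 K t : ℂ)) = 7 :=
  count7 h2 p (lamJ_p hp2) (lam1_p hp2) lamJ_T (lam1_T (p := p))

end Cfsg.Agent.H287.OC
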