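import Cfsg.Agent.H287.OC.D4Lam
import Cfsg.Agent.H898.OC.Hecke
import Cfsg.Agent.H763.OC.Five
import Cfsg.Agent.H763.OC.SylAut
import Cfsg.Agent.H798.Oc.Ind
import Cfsg.Agent.H87.OC.D4Aut
import Cfsg.Agent.H985.OC.IndLe
import Cfsg.Agent.KFacts.RgdAutFacts
import Cfsg.Agent.S1082

/-!
# S4891 (R12): the row of `PΩ₈⁺(q)` for `p = 3` (helper287)

* `hecke_hyp` : the double cosets of `P_J` on which `lamJ` agrees with itself, up to the triality;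
* `ocRow_D4` : `OCRow 3` for the Chevalley group of type `D₄` over a field of characteristic `3`.
-/

set_option autoImplicit false
set_option linter.unusedSectionVars false

open Cfsg Cfsg.Lie

namespace Cfsg.Agent.H287.OC

open CoxeterSystem Cfsg.Agent.ChevalleyStructure.CoxeterGeom Cfsg.Agent.Tits.Roots Cfsg.Agent.Tits.Core
  Cfsg.Agent.Tits.Exchange Cfsg.Agent.Tits.RootComb
  Cfsg.Agent.Nodes.Reps Cfsg.Agent.Nodes.BNOf Cfsg.Agent.Nodes.StabComb Cfsg.Agent.Nodes.Bruhat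
  Cfsg.Agent.Nodes.LeviDec Cfsg.Agent.Nodes.RGDChev Cfsg.Agent.ChevalleyStructure.CoxeterGeomTypes
  Cfsg.Agent.KFacts.RgdAut Cfsg.Agent.KFacts.RgdDiag Cfsg.Agent.KFacts.RgdChevCoord Cfsg.Agent.KFacts.RgdField
  Cfsg.Agent.H932.OC Cfsg.Agent.H993.OC Cfsg.Agent.H145.BR Cfsg.Agent.H798.Oc.Sign

universe u

/-- representatives of the orbits of `W_J` and the triality -/
def b3 : Fin 3 → ℕ := ![23, 0, 18]

theorem b3_lt : ∀ i, b3 i < 24 := by decide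

theorem tab (r : ℕ) (hr : r = 0 ∨ r = 5 ∨ r = 10 ∨ r = 11 ∨ r = 12 ∨ r = 13 ∨ r = 18 ∨ r = 23) :
    ∃ i : Fin 3, ∃ m : Fin 3, ∃ s : Fin 24, vc s = vc (b3 i) ∘ (rot ^ (m : ℕ)).symm ∧
      (vc r = vc s ∨ ∃ j : Fin 4, (j = 0 ∨ j = 2 ∨ j = 3) ∧ rf j s = r) := by
  rcases hr with rfl | rfl | rfl | rfl | rfl | rfl | rfl | rfl <;> decide +kernel

theorem rot_cartan : ∀ m : Fin 3, ∀ i j : Fin 4, cartanOf chevD4 4 ((rot ^ (m : ℕ)) i) ((rot ^ (m : ℕ)) j) =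
    cartanOf chevD4 4 i j := by decide +kernel

theorem rot_th : ∀ m : Fin 3, th ∘ (rot ^ (m : ℕ)).symm = th := by decide +kernel

variable {K : Type u} [Field K] [Finite K]

theorem rep_hat_wr (p : ℕ) [Fact p.Prime] [CharP K p] {τ : MulAut ↥(chevD4.group K)} (m : Fin 3)
    (D : Diag (T4 K) (X4 K) τ (rot ^ (m : ℕ))) (i : Fin 3) :
    rep cs4 hp4.isCartan (hat cs4 (rot ^ (m : ℕ)) (D.matrix (R4 K p)) (wr (b3 i)))⁻¹ th =
      vc (b3 i) ∘ (rot ^ (m : ℕ)).symm := by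
  have h1 := rep_hat (cs := cs4) (h := hp4.isCartan) (D.matrix (R4 K p)) (rot_cartan m) (wr (b3 i))⁻¹ th
  rw [rot_th, map_inv, rep_wr (b3_lt i)] at h1
  exact h1

/-- **the double cosets** -/
theorem hecke_hyp (h2 : (2 : K) ≠ 0) {p : ℕ} [Fact p.Prime] [CharP K p] (hp2 : p ≠ 2)
    {A : Subgroup (MulAut ↥(chevD4.group K))} {τ : MulAut ↥(chevD4.group K)} (hτ : τ ∈ A)
    (hD : Diag (T4 K) (X4 K) τ rot) : ∃ g : Fin 3 → ↥(chevD4.group K),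
      ∀ x, Ag (PJ cs4 hp4.isCartan (T4 K) (X4 K) J4) (PJ cs4 hp4.isCartan (T4 K) (X4 K) J4) (lamJ K p) (lamJ K p) x →
        ∃ i, ∃ a ∈ A, ∃ u ∈ PJ cs4 hp4.isCartan (T4 K) (X4 K) J4, ∃ v ∈ PJ cs4 hp4.isCartan (T4 K) (X4 K) J4,
          x = u * a (g i) * v := by
  have hG : GG cs4 hp4.isCartan (T4 K) (X4 K) = ⊤ := Cfsg.Agent.KFacts.RgdRigid.GG_eq_top (G1_eq_top hp4 cs4)
  choose g hg using fun i : Fin 3 => exists_rp cs4 (R4 K p).nsys (wr (b3 i))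
  refine ⟨g, fun x hx => ?_⟩
  obtain ⟨a, ha, b, hb, w, k, hk, e⟩ := exists_rp_dc (R4 K p) hG J4 J4 x
  have hky : Ag (PJ cs4 hp4.isCartan (T4 K) (X4 K) J4) (PJ cs4 hp4.isCartan (T4 K) (X4 K) J4) (lamJ K p) (lamJ K p) k := by
    have h1 := hx.mul_mem (inv_mem ha) (inv_mem hb)
    have e2 : a⁻¹ * x * b⁻¹ = k := by rw [e]; group
    rwa [e2] at h1
  have h3 := (tag_iff4 h2 p (by norm_num) (by norm_num) lamJ_T lamJ_T hk).1
    ((ag_iff (R4 K p) hk (lamJ_p hp2) (lamJ_p hp2)).1 hky)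
  rw [vc_th] at h3
  obtain ⟨r, hr, er⟩ := exists_vc (root_th.act w⁻¹)
  rw [er, ← vc_th, par_vc hr (by norm_num), par23 r hr] at h3
  obtain ⟨i, m, s, hs, hsr⟩ := tab r h3
  have Dm := hD.pow (m : ℕ)
  have h4 := Dm.rp' (R := R4 K p) (Dm.matrix (R4 K p)) (hg i)
  have h5 := rep_hat_wr p m Dm i
  rw [← hs] at h5
  have h6 : ∃ u ∈ WJ cs4 J4, rep cs4 hp4.isCartan w⁻¹ th =
      rep cs4 hp4.isCartan u (rep cs4 hp4.isCartan (hat cs4 (rot ^ (m : ℕ)) (Dm.matrix (R4 K p)) (wr (b3 i)))⁻¹ th) := by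
    rw [h5, er]
    rcases hsr with h | ⟨j, hj, h⟩
    · exact ⟨1, one_mem _, by rw [map_one, Module.End.one_apply, h]⟩
    · exact ⟨cs4.simple j, simple_mem_WJ cs4 hj, by rw [rep_vc j s.2, h]⟩
  obtain ⟨u, hu, e3⟩ := h6
  obtain ⟨a', ha', b', hb', e4⟩ := dc_of_root p hk h4 hu e3
  refine ⟨i, τ ^ (m : ℕ), pow_mem hτ _, a * a', mul_mem ha ha', b' * b, mul_mem hb' hb, ?_⟩
  rw [e, e4]
  group

/-! ### invariance -/

theorem psi_inv [Fintype ↥(chevD4.group K)] {p : ℕ} [Fact p.Prime] [CharP K p] {α : MulAut ↥(chevD4.group K)}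
    (hJ : Fix α (PJ cs4 hp4.isCartan (T4 K) (X4 K) J4)) (hX : Fix α (X4 K th)) (x : ↥(chevD4.group K)) :
    indFun (PJ cs4 hp4.isCartan (T4 K) (X4 K) J4) (fun t => (lamJ K p t : ℂ)) (α x) =
      indFun (PJ cs4 hp4.isCartan (T4 K) (X4 K) J4) (fun t => (lamJ K p t : ℂ)) x :=
  H76.OC.indFun_aut (map_of_fix hJ) (fun y hy hy' => by rw [lamJ_aut hX hy hy']) x

theorem pi1_inv [Fintype ↥(chevD4.group K)] {α : MulAut ↥(chevD4.group K)}
    (hQ : Fix α (PJ cs4 hp4.isCartan (T4 K) (X4 K) {1})) (hB : Fix α (RGD.B cs4 hp4.isCartan (T4 K) (X4 K)))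
    (x : ↥(chevD4.group K)) :
    indFun (PJ cs4 hp4.isCartan (T4 K) (X4 K) {1}) (fun t => (lam1 K t : ℂ)) (α x) =
      indFun (PJ cs4 hp4.isCartan (T4 K) (X4 K) {1}) (fun t => (lam1 K t : ℂ)) x :=
  H76.OC.indFun_aut (map_of_fix hQ) (fun y hy hy' => by rw [lam1_aut hQ hB hy hy']) x

theorem piB_inv [Fintype ↥(chevD4.group K)] {p : ℕ} [Fact p.Prime] [CharP K p] {α : MulAut ↥(chevD4.group K)}
    (hQ : Fix α (PJ cs4 hp4.isCartan (T4 K) (X4 K) {1})) (hB : Fix α (RGD.B cs4 hp4.isCartan (T4 K) (X4 K)))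
    (x : ↥(chevD4.group K)) :
    indFun (PJ cs4 hp4.isCartan (T4 K) (X4 K) ∅) (fun t => (lamB K p t : ℂ)) (α x) =
      indFun (PJ cs4 hp4.isCartan (T4 K) (X4 K) ∅) (fun t => (lamB K p t : ℂ)) x :=
  H76.OC.indFun_aut (map_of_fix (by rw [PJ_empty (R4 K p)]; exact hB)) (fun y hy hy' => by rw [lamB_aut hQ hB hy hy']) x

/-! ### the principal character, the degree, the values -/

theorem psi_one [Fintype ↥(chevD4.group K)] (h2 : (2 : K) ≠ 0) {p : ℕ} [Fact p.Prime] [CharP K p] :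
    classInner (indFun (PJ cs4 hp4.isCartan (T4 K) (X4 K) J4) fun t => (lamJ K p t : ℂ)) 1 = 0 := by
  obtain ⟨ω, hω⟩ := exists_eta K h2
  have ht := hc_mem (K := K) hp4 (1 : Fin 4) ω.ne_zero
  have hP : hc hp4 1 (ω : K) ∈ PJ cs4 hp4.isCartan (T4 K) (X4 K) J4 := B_le_PJ (RGD.T_le_B ht)
  refine H798.Oc.Ind.inner_one ⟨⟨_, hP⟩, fun h => ?_⟩
  rw [lamJ_T _ ht hP, et_hc hp4 cs4 (root_vc (by norm_num)) 1 ω.ne_zero, et_unit, hω] at h
  have h3 : pairing (cartanOf chevD4 4) (1 : Fin 4) (vc 23) = 1 := by decide +kernel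
  rw [h3, zpow_one] at h
  have h4 : sC (-1) = sC 1 := by rw [h, map_one]
  exact absurd (sC_inj h4) (by decide)

theorem psi_index (p : ℕ) [Fact p.Prime] [CharP K p] : ¬ p ∣ (PJ cs4 hp4.isCartan (T4 K) (X4 K) J4).index := by
  have hG : GG cs4 hp4.isCartan (T4 K) (X4 K) = ⊤ := Cfsg.Agent.KFacts.RgdRigid.GG_eq_top (G1_eq_top hp4 cs4)
  obtain ⟨S, hS⟩ := KFacts.RgdAutFacts.exists_sylow (R4 K p) hG
  have h2 : (S : Subgroup ↥(chevD4.group K)) ≤ PJ cs4 hp4.isCartan (T4 K) (X4 K) J4 := by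
    rw [hS]
    exact RGD.U_le_B.trans B_le_PJ
  exact fun h => S.not_dvd_index (h.trans (Subgroup.index_dvd_of_le h2))

theorem two_ne (p : ℕ) [hp : Fact p.Prime] [CharP K p] (hp2 : p ≠ 2) : (2 : K) ≠ 0 := by
  intro h
  have h1 : ((2 : ℕ) : K) = 0 := by exact_mod_cast h
  rw [CharP.cast_eq_zero_iff K p] at h1
  exact hp2 ((Nat.prime_dvd_prime_iff_eq hp.out Nat.prime_two).1 h1)

/-- **the row of type `D₄` in characteristic three** -/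
theorem ocRow_D4 (K : Type u) [Field K] [Finite K] [CharP K 3] : OCRow 3 ↥(chevD4.group K) := by
  classical
  have h3 : Fact (Nat.Prime 3) := ⟨Nat.prime_three⟩
  have := Fintype.ofFinite ↥(chevD4.group K)
  intro A hA
  have hp2 : (3 : ℕ) ≠ 2 := by norm_num
  have h2 := two_ne (K := K) 3 hp2
  have hG : GG cs4 hp4.isCartan (T4 K) (X4 K) = ⊤ := Cfsg.Agent.KFacts.RgdRigid.GG_eq_top (G1_eq_top hp4 cs4)
  obtain ⟨S, hS⟩ := KFacts.RgdAutFacts.exists_sylow (R4 K 3) hG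
  obtain ⟨τ, hτ3, hτU, hD⟩ := H87.OC.exists_triality (K := K) (p := 3)
  obtain ⟨A', hA', hτA, hfix, γ, hγ⟩ := H763.OC.exists_sylow_aut S (τ := τ) (by rw [hS]; exact hτU) (k := 1)
    (by rw [pow_one]; exact hτ3) hA
  have hf : ∀ a ∈ A', Fix a (RGD.B cs4 hp4.isCartan (T4 K) (X4 K)) ∧ Fix a (PJ cs4 hp4.isCartan (T4 K) (X4 K) {1}) ∧
      Fix a (PJ cs4 hp4.isCartan (T4 K) (X4 K) J4) ∧ Fix a (X4 K th) := by
    intro a ha
    obtain ⟨k, hk⟩ := hA' ⟨a, ha⟩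
    have h4 := hfix a ha
    rw [hS] at h4
    exact H87.OC.fix_three K (p := 3) h4 (k := k) (congrArg Subtype.val hk)
  obtain ⟨g, hg⟩ := hecke_hyp h2 hp2 hτA hD
  have key : ∃ θ, Wt 3 ↥(chevD4.group K) A' θ := by
    refine H763.OC.wt_of_five hp2 hA'
      (Ψ := indFun (PJ cs4 hp4.isCartan (T4 K) (X4 K) J4) fun t => (lamJ K 3 t : ℂ))
      (π := indFun (PJ cs4 hp4.isCartan (T4 K) (X4 K) ∅) fun t => (lamB K 3 t : ℂ))
      (π' := indFun (PJ cs4 hp4.isCartan (T4 K) (X4 K) {1}) fun t => (lam1 K t : ℂ))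
      (H798.Oc.Ind.ind_isCharacter _ _) (inner_JJ h2 hp2) (psi_one h2) (H798.Oc.Ind.ind_one _ _) (psi_index 3)
      (pRat_of_int (H798.Oc.Ind.ind_int _ ((sg (X4 K th)).comp (Subgroup.inclusion (PJ_le_norm K 3)))))
      (fun a ha => psi_inv (hf a ha).2.2.1 (hf a ha).2.2.2) (H798.Oc.Ind.ind_isCharacter _ _)
      (H798.Oc.Ind.ind_isCharacter _ _)
      (pRat_of_int (H798.Oc.Ind.ind_int _
        ((sq (PJ cs4 hp4.isCartan (T4 K) (X4 K) {1}) (RGD.B cs4 hp4.isCartan (T4 K) (X4 K))).comp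
          (Subgroup.inclusion (PJ_mono (R4 K 3) (Set.empty_subset {1}))))))
      (pRat_of_int (H798.Oc.Ind.ind_int _
        (sq (PJ cs4 hp4.isCartan (T4 K) (X4 K) {1}) (RGD.B cs4 hp4.isCartan (T4 K) (X4 K)))))
      (fun a ha => piB_inv (hf a ha).2.1 (hf a ha).1) (fun a ha => pi1_inv (hf a ha).2.1 (hf a ha).1)
      (fun χ hχ => H985.OC.ind_le (PJ_mono (R4 K 3) (Set.empty_subset {1})) (lam1 K) hχ) ?_ ?_
    · rw [inner_JB h2 hp2, inner_J1 h2 hp2]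
      norm_num
    · intro χ hinj hirr hinv hne ψ hψ hn
      exact H898.OC.hecke' _ (lamJ K 3) A'
        (fun a ha x => ⟨((hf a ha).2.2.1 x).2 x.2, lamJ_aut (hf a ha).2.2.2 x.2 _⟩) g hg χ hinj hirr hinv hne hψ hn
  obtain ⟨θ, hθ⟩ := key
  exact ⟨_, H763.OC.wt_of_conj hγ hθ⟩

/-- **the row of `PΩ₈⁺(3^f)`** -/
theorem o8 {p : ℕ} [Fact p.Prime] (h3 : p = 3) (F : Type) [Field F] [Fintype F] [CharP F p] :
    OCRow p (POmega F (quadFormPlus 4 F)) := by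
  subst h3
  obtain ⟨e⟩ := Cfsg.Agent.S1082.result (F := F)
  exact (ocRow_D4 F).of_equiv e.symm

end Cfsg.Agent.H287.OC
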