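import Cfsg.Agent.H287.OC.D4Defs
import Cfsg.Agent.H798.Oc.Sign
import Cfsg.Agent.H629.ExcTor

/-!
# S4891, own characteristic: sign characters of the torus of a Chevalley group (helper287)

* `eta` : the quadratic character of `Kˣ`, as the sign of the multiplication; `et` : the same on `K`;
* `sg_root` : the sign of the action of `t ∈ T` on the root group `X_a` is `et (ch a t)`;
* `tag_iff` : two of these characters agree on `T` iff the roots are congruent modulo `2P`.
-/

set_option autoImplicit false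
set_option linter.unusedSectionVars false

open Cfsg Cfsg.Lie

namespace Cfsg.Agent.H287.OC

open CoxeterSystem Cfsg.Agent.ChevalleyStructure.CoxeterGeom Cfsg.Agent.Tits.Roots Cfsg.Agent.Tits.Core
  Cfsg.Agent.Nodes.Reps Cfsg.Agent.Nodes.BNOf Cfsg.Agent.Nodes.StabComb Cfsg.Agent.Nodes.Bruhat
  Cfsg.Agent.Nodes.LeviDec Cfsg.Agent.Nodes.RGDChev Cfsg.Agent.ChevalleyStructure.CoxeterGeomTypes
  Cfsg.Agent.KFacts.RgdAut Cfsg.Agent.KFacts.RgdDiag Cfsg.Agent.KFacts.RgdChevCoord Cfsg.Agent.KFacts.RgdField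
  Cfsg.Agent.H798.Oc.Sign Cfsg.Agent.H129.TorusChar Cfsg.Agent.H629.ExcTor Cfsg.Agent.BpExc.TorChev

universe u

section eta

variable (F : Type u) [Field F] [Finite F]

/-- the sign of the multiplication by a unit -/
noncomputable def eta : Fˣ →* ℤˣ := sgn.comp (MulAction.toPermHom Fˣ F)

theorem exists_eta (h2 : (2 : F) ≠ 0) : ∃ ω : Fˣ, eta F ω = -1 := by
  classical
  obtain ⟨ω, hω⟩ := IsCyclic.exists_generator (α := Fˣ)
  have := Fintype.ofFinite F
  have hodd : Odd (Nat.card F) := by
    rw [Nat.card_eq_fintype_card]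
    have h3 := FiniteField.odd_card_of_char_ne_two (F := F) (by
      intro h3
      apply h2
      have := CharP.cast_eq_zero F (ringChar F)
      rw [h3] at this
      exact_mod_cast this)
    exact Nat.odd_iff.2 h3
  refine ⟨ω, sgn_cycle hodd (by rw [Nat.card_eq_fintype_card]; exact Fintype.one_lt_card) _ 0 ?_ ?_⟩
  · change ω • (0 : F) = 0
    rw [smul_zero]
  · intro x y hx hy
    obtain ⟨n, hn⟩ := (mem_powers_iff_mem_zpowers.2 (hω (Units.mk0 y hy * (Units.mk0 x hx)⁻¹)))
    refine ⟨n, ?_⟩
    rw [← map_pow]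
    change (ω ^ n) • x = y
    have h4 : ω ^ n = Units.mk0 y hy * (Units.mk0 x hx)⁻¹ := hn
    rw [h4, Units.smul_def, Units.val_mul, Units.val_inv_eq_inv_val, Units.val_mk0, Units.val_mk0, smul_eq_mul,
      inv_mul_cancel_right₀ hx]

open Classical in
/-- the quadratic character on `F` (with value `1` at `0`) -/
noncomputable def et (a : F) : ℤˣ := if h : a = 0 then 1 else eta F (Units.mk0 a h)

variable {F}

theorem et_unit (u : Fˣ) : et F (u : F) = eta F u := by
  unfold et
  rw [dif_neg u.ne_zero]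
  congr 1
  exact Units.ext rfl

theorem et_mul {a b : F} (ha : a ≠ 0) (hb : b ≠ 0) : et F (a * b) = et F a * et F b := by
  have h1 := et_unit (Units.mk0 a ha * Units.mk0 b hb)
  rw [map_mul, ← et_unit, ← et_unit] at h1
  exact h1

theorem et_one : et F (1 : F) = 1 := by
  have h1 := et_unit (1 : Fˣ)
  rwa [map_one, Units.val_one] at h1

theorem et_zpow {a : F} (ha : a ≠ 0) (m : ℤ) : et F (a ^ m) = et F a ^ m := by
  have h1 := et_unit ((Units.mk0 a ha) ^ m)
  rw [map_zpow, ← et_unit, Units.val_zpow_eq_zpow_val] at h1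
  exact h1

theorem sq_eq_one' (u : ℤˣ) : u * u = 1 := Int.units_mul_self u

theorem neg_one_zpow_iff {m : ℤ} : ((-1 : ℤˣ) ^ m = 1) ↔ Even m := by
  constructor
  · intro h
    by_contra hc
    rw [Int.not_even_iff_odd] at hc
    rw [hc.neg_one_zpow] at h
    exact absurd h (by decide)
  · intro h
    exact h.neg_one_zpow

theorem zpow_even (u : ℤˣ) {m : ℤ} (hm : Even m) : u ^ m = 1 := by
  obtain ⟨k, rfl⟩ := hm
  rw [zpow_add, sq_eq_one']

end eta

variable {D : ChevalleyDatum} {l : ℕ} {M : CoxeterMatrix (Fin l)} (hp : IsType D l M) {K : Type u} [Field K] [Finite K]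
  {W : Type*} [Group W] (cs : CoxeterSystem M W)

/-- **the sign on a root group** -/
theorem sg_root (p : ℕ) [Fact p.Prime] [CharP K p] {a : Fin l → ℤ} (ha : IsRoot cs hp.isCartan a) {t : ↥(D.group K)}
    (ht : t ∈ TT D K) (h : t ∈ Subgroup.normalizer (XX D l K a : Set ↥(D.group K))) :
    sg (XX D l K a) ⟨t, h⟩ = et K (ch hp a t) := by
  have C := (coords (K := K) hp cs p).coord a ha
  have h0 := C.chi_ne_zero ht
  have h1 : et K (ch hp a t) = eta K (Units.mk0 _ h0) := by rw [← et_unit, Units.val_mk0]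
  rw [h1, sg_apply]
  let f : K → ↥(XX D l K a) := fun c => ⟨xc hp a c, (C.mem _).2 ⟨c, rfl⟩⟩
  have hf : Function.Bijective f := by
    constructor
    · intro c d hcd
      exact C.inj (congrArg Subtype.val hcd)
    · rintro ⟨y, hy⟩
      obtain ⟨c, rfl⟩ := (C.mem y).1 hy
      exact ⟨c, rfl⟩
  refine (sgn_equiv _ _ (Equiv.ofBijective f hf) fun c => ?_).symm
  apply Subtype.ext
  change xc hp a (ch hp a t * c) = t * xc hp a c * t⁻¹
  rw [C.act t ht]

/-- the parity of a weight -/
def Par (D : ChevalleyDatum) (l : ℕ) (x : Fin l → ℤ) : Prop := ∀ i, Even (pairing (cartanOf D l) i x)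

/-- the character `et ∘ a` of the torus -/
theorem et_hc {a : Fin l → ℤ} (ha : IsRoot cs hp.isCartan a) (i : Fin l) {c : K} (hc0 : c ≠ 0) :
    et K (ch hp a (hc hp i c)) = et K c ^ pairing (cartanOf D l) i a := by
  rw [← cX_root hp cs (hc_mem hp i hc0) ha, cX_hc hp i hc0, et_zpow hc0]

theorem tag_iff (h2 : (2 : K) ≠ 0) (p : ℕ) [Fact p.Prime] [CharP K p] {a b : Fin l → ℤ} (ha : IsRoot cs hp.isCartan a)
    (hb : IsRoot cs hp.isCartan b) :
    (∀ t ∈ TT D K, et K (ch hp a t) = et K (ch hp b t)) ↔ Par D l (a - b) := by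
  have hpair : ∀ i, pairing (cartanOf D l) i (a - b) = pairing (cartanOf D l) i a - pairing (cartanOf D l) i b := by
    intro i
    unfold pairing
    rw [← Finset.sum_sub_distrib]
    refine Finset.sum_congr rfl fun j _ => ?_
    rw [Pi.sub_apply, mul_sub]
  constructor
  · intro h i
    obtain ⟨ω, hω⟩ := exists_eta K h2
    have h3 := h _ (hc_mem hp i ω.ne_zero)
    rw [et_hc hp cs ha i ω.ne_zero, et_hc hp cs hb i ω.ne_zero, et_unit, hω] at h3
    rw [hpair, ← neg_one_zpow_iff, zpow_sub, h3, mul_inv_cancel]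
  · intro h t ht
    have key : ∀ t ∈ Subgroup.closure {g | ∃ (j : Fin l) (c : K), c ≠ 0 ∧ g = hc hp j c},
        t ∈ TT D K ∧ et K (ch hp a t) = et K (ch hp b t) := by
      intro t ht
      induction ht using Subgroup.closure_induction with
      | mem x hx =>
        obtain ⟨j, c, hc0, rfl⟩ := hx
        refine ⟨hc_mem hp j hc0, ?_⟩
        rw [et_hc hp cs ha j hc0, et_hc hp cs hb j hc0]
        have h4 := zpow_even (et K c) (h j)
        rw [hpair, zpow_sub, mul_inv_eq_one] at h4
        exact h4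
      | one =>
        refine ⟨one_mem _, ?_⟩
        rw [← cX_root hp cs (one_mem _) ha, ← cX_root hp cs (one_mem _) hb, cX_one, cX_one]
      | mul x y _ _ hx hy =>
        refine ⟨mul_mem hx.1 hy.1, ?_⟩
        have Ca := (coords (K := K) hp cs p).coord a ha
        have Cb := (coords (K := K) hp cs p).coord b hb
        rw [Ca.chi_mul hx.1 hy.1, Cb.chi_mul hx.1 hy.1, et_mul (Ca.chi_ne_zero hx.1) (Ca.chi_ne_zero hy.1),
          et_mul (Cb.chi_ne_zero hx.1) (Cb.chi_ne_zero hy.1), hx.2, hy.2]
      | inv x _ hx =>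
        refine ⟨inv_mem hx.1, ?_⟩
        have hinv : ∀ c : Fin l → ℤ, IsRoot cs hp.isCartan c → et K (ch hp c x⁻¹) = et K (ch hp c x) := by
          intro c hc
          have Cc := (coords (K := K) hp cs p).coord c hc
          have h5 := Cc.chi_mul hx.1 (inv_mem hx.1)
          rw [mul_inv_cancel, ← cX_root hp cs (one_mem _) hc, cX_one] at h5
          have h6 := et_mul (Cc.chi_ne_zero hx.1) (Cc.chi_ne_zero (inv_mem hx.1))
          rw [← h5, et_one] at h6
          have h7 := sq_eq_one' (et K (ch hp c x))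
          exact (mul_left_cancel (h6.symm.trans h7.symm))
        rw [hinv a ha, hinv b hb, hx.2]
    exact (key t (TT_le hp ht)).2

/-- parity is invariant under the Weyl group -/
theorem Par.act {x : Fin l → ℤ} (hx : Par D l x) (w : W) : Par D l (rep cs hp.isCartan w x) := by
  obtain ⟨ω, rfl⟩ := cs.wordProd_surjective w
  induction ω with
  | nil => rwa [wordProd_nil, map_one, Module.End.one_apply]
  | cons j ω ih =>
    rw [wordProd_cons, rep_mul_apply, rep_simple_eq]
    intro i
    set y := rep cs hp.isCartan (cs.wordProd ω) x with hy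
    have h1 : pairing (cartanOf D l) i (y - pairing (cartanOf D l) j y • sr j) =
        pairing (cartanOf D l) i y - pairing (cartanOf D l) j y * cartanOf D l i j := by
      rw [← pairing_sr hp i j]
      unfold pairing
      rw [Finset.mul_sum, ← Finset.sum_sub_distrib]
      refine Finset.sum_congr rfl fun k _ => ?_
      rw [Pi.sub_apply, Pi.smul_apply, smul_eq_mul]
      ring
    rw [h1]
    exact (ih i).sub ((ih j).mul_right _)

end Cfsg.Agent.H287.OC
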