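import Cfsg.Agent.H287.OC.D4Sign

/-!
# S4891 (R12), `D₄`: double cosets (helper287)

* `vc r` : the roots, `r < 24`; `wr r` : an element of `W` with `(wr r)⁻¹ θ = vc r`;
* `tag_iff4` : when two sign characters agree on `T`;
* `count` : the number of double cosets as the number of orbits on roots;
* `dc_of_root` : double cosets `P g P`.
-/

set_option autoImplicit false
set_option linter.unusedSectionVars false

open Cfsg Cfsg.Lie

namespace Cfsg.Agent.H287.OC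

open CoxeterSystem Cfsg.Agent.ChevalleyStructure.CoxeterGeom Cfsg.Agent.Tits.Roots Cfsg.Agent.Tits.Core
  Cfsg.Agent.Tits.Exchange Cfsg.Agent.Tits.RootComb
  Cfsg.Agent.Nodes.Reps Cfsg.Agent.Nodes.BNOf Cfsg.Agent.Nodes.StabComb Cfsg.Agent.Nodes.Bruhat
  Cfsg.Agent.Nodes.LeviDec Cfsg.Agent.Nodes.RGDChev Cfsg.Agent.ChevalleyStructure.CoxeterGeomTypes
  Cfsg.Agent.KFacts.RgdAut Cfsg.Agent.KFacts.RgdDiag Cfsg.Agent.KFacts.RgdChevCoord Cfsg.Agent.KFacts.RgdField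
  Cfsg.Agent.H932.OC

universe u

instance finW4 : Finite coxeterD4.Group := finite_W hp4 cs4

/-- the roots -/
abbrev vc (r : ℕ) : Fin 4 → ℤ := vec chevD4 4 r

theorem nr24 : chevD4.nroots = 24 := by decide

theorem vc_th : vc 23 = th := by decide +kernel

/-- the reflections on the roots -/
abbrev rf (i : Fin 4) (r : ℕ) : ℕ := chevD4.reflectRoot i r

theorem rf_lt : ∀ r < 24, ∀ i : Fin 4, rf i r < 24 := by decide +kernel

theorem rep_vc (i : Fin 4) {r : ℕ} (hr : r < 24) :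
    rep cs4 hp4.isCartan (cs4.simple i) (vc r) = vc (rf i r) := rep_vec hp4 cs4 i (by rw [nr24]; exact hr)

theorem root_vc {r : ℕ} (hr : r < 24) : IsRoot cs4 hp4.isCartan (vc r) := isRoot_vec hp4 cs4 (by rw [nr24]; exact hr)

theorem root_th : IsRoot cs4 hp4.isCartan th := by rw [← vc_th]; exact root_vc (by norm_num)

theorem exists_vc {x : Fin 4 → ℤ} (hx : IsRoot cs4 hp4.isCartan x) : ∃ r < 24, x = vc r := by
  obtain ⟨r, hr, e⟩ := (isRoot_iff hp4 cs4 x).1 hx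
  exact ⟨r, by rwa [nr24] at hr, e.symm⟩

theorem rep_foldr (ω : List (Fin 4)) {r : ℕ} (hr : r < 24) :
    ω.foldr rf r < 24 ∧ rep cs4 hp4.isCartan (cs4.wordProd ω) (vc r) = vc (ω.foldr rf r) := by
  induction ω with
  | nil => exact ⟨hr, by rw [wordProd_nil, map_one, Module.End.one_apply, List.foldr_nil]⟩
  | cons i ω ih => exact ⟨rf_lt _ ih.1 i, by rw [wordProd_cons, rep_mul_apply, ih.2, rep_vc i ih.1, List.foldr_cons]⟩

/-- words leading from the highest root to the roots -/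
def wdl : List (List (Fin 4)) := [[1, 2, 0, 1, 3, 1, 2, 0, 1], [2, 0, 1, 3, 1, 2, 0, 1], [2, 0, 1, 3, 2, 0, 1],
  [0, 1, 3, 1, 2, 0, 1], [0, 1, 3, 2, 0, 1], [0, 1, 3, 2, 1], [2, 1, 3, 1, 2, 0, 1], [2, 1, 3, 2, 0, 1],
  [1, 3, 1, 2, 0, 1], [1, 3, 2, 0, 1], [2, 1, 3, 0, 1], [3, 1, 2, 0, 1], [1, 2, 0, 1], [1, 3, 0, 1], [3, 2, 0, 1],
  [2, 0, 1], [3, 0, 1], [0, 1], [1, 3, 2, 1], [3, 2, 1], [2, 1], [3, 1], [1], []]

theorem wdl_foldr : ∀ r < 24, (wdl.getD r []).foldr rf 23 = r := by decide +kernel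

/-- an element of `W` with `(wr r)⁻¹ θ = vc r` -/
noncomputable def wr (r : ℕ) : coxeterD4.Group := (cs4.wordProd (wdl.getD r []))⁻¹

theorem rep_wr {r : ℕ} (hr : r < 24) : rep cs4 hp4.isCartan (wr r)⁻¹ th = vc r := by
  unfold wr
  rw [inv_inv, ← vc_th, (rep_foldr (wdl.getD r []) (by norm_num)).2, wdl_foldr r hr]

/-- the outer nodes -/
abbrev J4 : Set (Fin 4) := {0, 2, 3}

theorem orth_th : orth cs4 hp4.isCartan th = J4 := by
  ext i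
  rw [mem_orth]
  have h1 : ∀ i : Fin 4, (pairing (cartanOf chevD4 4) i th = 0 ↔ (i = 0 ∨ i = 2 ∨ i = 3)) := by decide +kernel
  rw [h1]
  rfl

theorem dom_th : Dom (cartanOf chevD4 4) th := by
  have h1 : ∀ i : Fin 4, 0 ≤ pairing (cartanOf chevD4 4) i th := by decide +kernel
  exact h1

theorem mem_WJ4 {w : coxeterD4.Group} : w ∈ WJ cs4 J4 ↔ rep cs4 hp4.isCartan w th = th := by
  rw [← orth_th]
  exact ⟨rep_of_mem_WJ_orth, mem_WJ_of_rep dom_th⟩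

/-- the double coset of an element of `W` is determined by a root -/
theorem wdc_iff {J' : Set (Fin 4)} {v v' : coxeterD4.Group} :
    (∃ z ∈ WJ cs4 J4, ∃ u ∈ WJ cs4 J', v = z * v' * u) ↔
      ∃ u ∈ WJ cs4 J', rep cs4 hp4.isCartan v⁻¹ th = rep cs4 hp4.isCartan u (rep cs4 hp4.isCartan v'⁻¹ th) := by
  constructor
  · rintro ⟨z, hz, u, hu, rfl⟩
    refine ⟨u⁻¹, inv_mem hu, ?_⟩
    have e : (z * v' * u)⁻¹ = u⁻¹ * v'⁻¹ * z⁻¹ := by group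
    rw [e, rep_mul_apply, rep_mul_apply, mem_WJ4.1 (inv_mem hz)]
  · rintro ⟨u, hu, e⟩
    refine ⟨v * u * v'⁻¹, mem_WJ4.2 ?_, u⁻¹, inv_mem hu, by group⟩
    rw [rep_mul_apply, rep_mul_apply, ← e, rep_apply_inv]

/-- invariants of orbits on roots -/
theorem inv_orbit {J' : Set (Fin 4)} (c : ℕ → ℕ) (hc : ∀ j ∈ J', ∀ r < 24, c (rf j r) = c r) {u : coxeterD4.Group}
    (hu : u ∈ WJ cs4 J') : ∀ r < 24, ∃ s < 24, rep cs4 hp4.isCartan u (vc r) = vc s ∧ c s = c r := by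
  unfold WJ at hu
  induction hu using Subgroup.closure_induction with
  | mem w hw =>
    obtain ⟨i, hi, rfl⟩ := hw
    intro r hr
    exact ⟨rf i r, rf_lt r hr i, rep_vc i hr, hc i hi r hr⟩
  | one => exact fun r hr => ⟨r, hr, by rw [map_one, Module.End.one_apply], rfl⟩
  | mul v w _ _ ih1 ih2 =>
    intro r hr
    obtain ⟨s, hs, e1, e2⟩ := ih2 r hr
    obtain ⟨t, ht, e3, e4⟩ := ih1 s hs
    exact ⟨t, ht, by rw [rep_mul_apply, e1, e3], e4.trans e2⟩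
  | inv w _ ih =>
    intro r hr
    obtain ⟨s, hs, e1⟩ := exists_vc ((root_vc hr).act w⁻¹)
    obtain ⟨t, ht, e2, e3⟩ := ih s hs
    have h1 : vc t = vc r := by rw [← e2, ← e1, rep_apply_inv]
    have h2 := vec_inj hp4 (by rw [nr24]; exact ht) (by rw [nr24]; exact hr) h1
    exact ⟨s, hs, e1, by rw [← e3, h2]⟩

theorem pair_vc (i : Fin 4) {r s : ℕ} (hr : r < 24) (hs : s < 24) :
    pairing (cartanOf chevD4 4) i (vc r - vc s) = chevD4.cartan i r - chevD4.cartan i s := by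
  rw [← pairing_vec hp4 i (by rw [nr24]; exact hr), ← pairing_vec hp4 i (by rw [nr24]; exact hs)]
  unfold pairing
  rw [← Finset.sum_sub_distrib]
  refine Finset.sum_congr rfl fun j _ => ?_
  rw [Pi.sub_apply, mul_sub]

theorem par_vc {r s : ℕ} (hr : r < 24) (hs : s < 24) :
    Par chevD4 4 (vc r - vc s) ↔ ∀ i : Fin 4, Even (chevD4.cartan i r - chevD4.cartan i s) := by
  unfold Par
  refine forall_congr' fun i => ?_
  rw [pair_vc i hr hs]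

/-- the sign as a complex number -/
def sC : ℤˣ →* ℂˣ := Units.map (Int.castRingHom ℂ : ℤ →* ℂ)

theorem sC_inj : Function.Injective sC := by
  intro a b h
  have h1 := congrArg Units.val h
  change ((a : ℤ) : ℂ) = ((b : ℤ) : ℂ) at h1
  exact Units.ext (by exact_mod_cast h1)

variable {K : Type u} [Field K] [Finite K]

/-- agreement on `T` of two sign characters -/
theorem tag_iff4 (h2 : (2 : K) ≠ 0) (p : ℕ) [Fact p.Prime] [CharP K p] {J J' : Set (Fin 4)} {r s : ℕ} (hr : r < 24)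
    (hs : s < 24) {ξ : ↥(PJ cs4 hp4.isCartan (T4 K) (X4 K) J) →* ℂˣ}
    {ξ' : ↥(PJ cs4 hp4.isCartan (T4 K) (X4 K) J') →* ℂˣ}
    (hT : ∀ t ∈ T4 K, ∀ h, ξ ⟨t, h⟩ = sC (et K (ch hp4 (vc r) t)))
    (hT' : ∀ t ∈ T4 K, ∀ h, ξ' ⟨t, h⟩ = sC (et K (ch hp4 (vc s) t))) {w : coxeterD4.Group} {g : ↥(chevD4.group K)}
    (hg : Rp cs4 (R4 K p).nsys w g) :
    TAg ξ ξ' g ↔ Par chevD4 4 (rep cs4 hp4.isCartan w⁻¹ (vc r) - vc s) := by
  have hTJ : ∀ {J : Set (Fin 4)}, T4 K ≤ PJ cs4 hp4.isCartan (T4 K) (X4 K) J := fun {J} => le_trans RGD.T_le_B B_le_PJ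
  have C := coords (K := K) hp4 cs4 p
  have h0 : (∀ t ∈ T4 K, et K (ch hp4 (vc r) t) = et K (ch hp4 (rep cs4 hp4.isCartan w (vc s)) t)) ↔
      Par chevD4 4 (rep cs4 hp4.isCartan w⁻¹ (vc r) - vc s) := by
    rw [tag_iff hp4 cs4 h2 p (root_vc hr) ((root_vc hs).act w)]
    have e : rep cs4 hp4.isCartan w⁻¹ (vc r - rep cs4 hp4.isCartan w (vc s)) = rep cs4 hp4.isCartan w⁻¹ (vc r) - vc s := by
      rw [map_sub, rep_inv_apply]
    rw [← e]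
    constructor
    · exact fun h => h.act hp4 cs4 w⁻¹
    · intro h
      have h1 := h.act hp4 cs4 w
      rwa [rep_apply_inv] at h1
  rw [← h0]
  have hch : ∀ t ∈ T4 K, ch hp4 (rep cs4 hp4.isCartan w (vc s)) t = ch hp4 (vc s) (g⁻¹ * t * g) := by
    intro t ht
    have h1 := C.chi_rp (R4 K p).nsys hg (root_vc hs) (conj_T (R4 K p) hg ht)
    have e : g * (g⁻¹ * t * g) * g⁻¹ = t := by group
    rwa [e] at h1
  constructor
  · intro h t ht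
    have h1 := h t ht (hTJ ht) (hTJ (conj_T (R4 K p) hg ht))
    rw [hT t ht, hT' _ (conj_T (R4 K p) hg ht)] at h1
    rw [hch t ht]
    exact sC_inj h1
  · intro h t ht h1 h3
    rw [hT t ht, hT' _ (conj_T (R4 K p) hg ht), h t ht, hch t ht]

/-- **the number of double cosets is a number of orbits on the roots** -/
theorem count [Fintype ↥(chevD4.group K)] (h2 : (2 : K) ≠ 0) (p : ℕ) [Fact p.Prime] [CharP K p] {J' : Set (Fin 4)}
    {m : ℕ} (b : Fin m → ℕ) (hb : ∀ i, b i < 24) {s : ℕ} (hs : s < 24)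
    {ξ : ↥(PJ cs4 hp4.isCartan (T4 K) (X4 K) J4) →* ℂˣ}
    {ξ' : ↥(PJ cs4 hp4.isCartan (T4 K) (X4 K) J') →* ℂˣ}
    (hξ : ∀ x k, x ^ p ^ k = 1 → ξ x = 1) (hξ' : ∀ x k, x ^ p ^ k = 1 → ξ' x = 1)
    (hT : ∀ t ∈ T4 K, ∀ h, ξ ⟨t, h⟩ = sC (et K (ch hp4 (vc 23) t)))
    (hT' : ∀ t ∈ T4 K, ∀ h, ξ' ⟨t, h⟩ = sC (et K (ch hp4 (vc s) t)))
    (hpar : ∀ i, Par chevD4 4 (vc (b i) - vc s))
    (hdis : ∀ i j, ∀ u ∈ WJ cs4 J', rep cs4 hp4.isCartan u (vc (b i)) = vc (b j) → i = j)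
    (hall : ∀ r < 24, Par chevD4 4 (vc r - vc s) → ∃ i, ∃ u ∈ WJ cs4 J', rep cs4 hp4.isCartan u (vc (b i)) = vc r) :
    classInner (indFun (PJ cs4 hp4.isCartan (T4 K) (X4 K) J4) fun t => (ξ t : ℂ))
      (indFun (PJ cs4 hp4.isCartan (T4 K) (X4 K) J') fun t => (ξ' t : ℂ)) = m := by
  have hG : GG cs4 hp4.isCartan (T4 K) (X4 K) = ⊤ := Cfsg.Agent.KFacts.RgdRigid.GG_eq_top (G1_eq_top hp4 cs4)
  have h23 : (23 : ℕ) < 24 := by norm_num
  have key := inner_rgd (R4 K p) hG hξ hξ' (ι := Fin m) (fun i => wr (b i)) ?_ ?_ ?_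
  · rw [key, Fintype.card_fin]
  · intro i
    obtain ⟨g, hg⟩ := exists_rp cs4 (R4 K p).nsys (wr (b i))
    refine ⟨g, hg, (tag_iff4 h2 p h23 hs hT hT' hg).2 ?_⟩
    rw [vc_th, rep_wr (hb i)]
    exact hpar i
  · rintro i j ⟨v, hv, v', hv', e⟩
    obtain ⟨u, hu, e2⟩ := wdc_iff.1 ⟨v, hv, v', hv', e⟩
    rw [rep_wr (hb i), rep_wr (hb j)] at e2
    exact hdis i j u hu e2.symm
  · intro v g hg hTA
    have h3 := (tag_iff4 h2 p h23 hs hT hT' hg).1 hTA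
    rw [vc_th] at h3
    obtain ⟨r, hr, e⟩ := exists_vc (root_th.act v⁻¹)
    rw [e] at h3
    obtain ⟨i, u, hu, e2⟩ := hall r hr h3
    exact ⟨i, wdc_iff.2 ⟨u, hu, by rw [rep_wr (hb i), e2, e]⟩⟩

/-- double cosets of `P_J` and roots -/
theorem dc_of_root (p : ℕ) [Fact p.Prime] [CharP K p] {v v' u : coxeterD4.Group} {g g' : ↥(chevD4.group K)}
    (hg : Rp cs4 (R4 K p).nsys v g) (hg' : Rp cs4 (R4 K p).nsys v' g') (hu : u ∈ WJ cs4 J4)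
    (e : rep cs4 hp4.isCartan v⁻¹ th = rep cs4 hp4.isCartan u (rep cs4 hp4.isCartan v'⁻¹ th)) :
    ∃ a ∈ PJ cs4 hp4.isCartan (T4 K) (X4 K) J4, ∃ b ∈ PJ cs4 hp4.isCartan (T4 K) (X4 K) J4, g = a * g' * b := by
  obtain ⟨z, hz, u', hu', e2⟩ := wdc_iff.2 ⟨u, hu, e⟩
  obtain ⟨nz, hnz⟩ := exists_rp cs4 (R4 K p).nsys z
  obtain ⟨nu, hnu⟩ := exists_rp cs4 (R4 K p).nsys u'
  have h1 : Rp cs4 (R4 K p).nsys v (nz * g' * nu) := by
    rw [e2]
    exact (hnz.mul hg').mul hnu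
  have h2 := h1.unique hg
  refine ⟨nz, LJ_le_PJ (rp_mem_LJ (R4 K p) hz hnz), nu * ((nz * g' * nu)⁻¹ * g),
    mul_mem (LJ_le_PJ (rp_mem_LJ (R4 K p) hu' hnu)) (B_le_PJ (RGD.T_le_B h2)), by group⟩

/-! ### the three counts -/

theorem par23 : ∀ r < 24, (∀ i : Fin 4, Even (chevD4.cartan i r - chevD4.cartan i 23)) ↔
    (r = 0 ∨ r = 5 ∨ r = 10 ∨ r = 11 ∨ r = 12 ∨ r = 13 ∨ r = 18 ∨ r = 23) := by decide +kernel

theorem par14 : ∀ r < 24, (∀ i : Fin 4, Even (chevD4.cartan i r - chevD4.cartan i 14)) ↔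
    (r = 2 ∨ r = 3 ∨ r = 6 ∨ r = 9 ∨ r = 14 ∨ r = 17 ∨ r = 20 ∨ r = 21) := by decide +kernel

/-- orbits under `W_J` -/
def cJ (r : ℕ) : ℕ := if r = 23 then 0 else if r = 0 then 1 else if r = 5 ∨ r = 18 then 2 else
  if r = 10 ∨ r = 13 then 3 else if r = 11 ∨ r = 12 then 4 else 5

theorem cJ_inv : ∀ r < 24, ∀ j : Fin 4, (j = 0 ∨ j = 2 ∨ j = 3) → cJ (rf j r) = cJ r := by decide +kernel

/-- orbits under `s₁` -/
def c1 (r : ℕ) : ℕ := min r (rf 1 r)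

theorem c1_inv : ∀ r < 24, c1 (rf 1 r) = c1 r := by decide +kernel

def b5 : Fin 5 → ℕ := ![23, 0, 18, 13, 12]
def b8 : Fin 8 → ℕ := ![2, 3, 6, 9, 14, 17, 20, 21]
def b7 : Fin 7 → ℕ := ![2, 3, 6, 14, 17, 20, 21]

theorem count5 [Fintype ↥(chevD4.group K)] (h2 : (2 : K) ≠ 0) (p : ℕ) [Fact p.Prime] [CharP K p]
    {ξ : ↥(PJ cs4 hp4.isCartan (T4 K) (X4 K) J4) →* ℂˣ} (hξ : ∀ x k, x ^ p ^ k = 1 → ξ x = 1)
    (hT : ∀ t ∈ T4 K, ∀ h, ξ ⟨t, h⟩ = sC (et K (ch hp4 (vc 23) t))) :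
    classInner (indFun (PJ cs4 hp4.isCartan (T4 K) (X4 K) J4) fun t => (ξ t : ℂ))
      (indFun (PJ cs4 hp4.isCartan (T4 K) (X4 K) J4) fun t => (ξ t : ℂ)) = 5 := by
  have hb : ∀ i, b5 i < 24 := by decide
  have h := count h2 p b5 hb (s := 23) (by norm_num) hξ hξ hT hT (fun i => ?_) (fun i j u hu e => ?_) (fun r hr hp => ?_)
  · exact_mod_cast h
  · rw [par_vc (hb i) (by norm_num)]
    revert i
    decide +kernel
  · obtain ⟨s, hs, e1, e2⟩ := inv_orbit cJ (fun j hj r hr => cJ_inv r hr j hj) hu (b5 i) (hb i)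
    have h3 : b5 j = s := vec_inj hp4 (by rw [nr24]; exact hb j) (by rw [nr24]; exact hs) (e.symm.trans e1)
    rw [← h3] at e2
    revert e2
    clear h3 e e1
    revert i j
    decide
  · rw [par_vc hr (by norm_num), par23 r hr] at hp
    have h3 : ∀ r : ℕ, (r = 0 ∨ r = 5 ∨ r = 10 ∨ r = 11 ∨ r = 12 ∨ r = 13 ∨ r = 18 ∨ r = 23) →
        ∃ i, b5 i = r ∨ ∃ j : Fin 4, (j = 0 ∨ j = 2 ∨ j = 3) ∧ rf j (b5 i) = r := by
      rintro r (rfl | rfl | rfl | rfl | rfl | rfl | rfl | rfl) <;> decide +kernel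
    obtain ⟨i, e | ⟨j, hj, e⟩⟩ := h3 r hp
    · exact ⟨i, 1, one_mem _, by rw [map_one, Module.End.one_apply, e]⟩
    · exact ⟨i, cs4.simple j, simple_mem_WJ cs4 hj, by rw [rep_vc j (hb i), e]⟩

theorem count8 [Fintype ↥(chevD4.group K)] (h2 : (2 : K) ≠ 0) (p : ℕ) [Fact p.Prime] [CharP K p]
    {ξ : ↥(PJ cs4 hp4.isCartan (T4 K) (X4 K) J4) →* ℂˣ} {ξ' : ↥(PJ cs4 hp4.isCartan (T4 K) (X4 K) ∅) →* ℂˣ}
    (hξ : ∀ x k, x ^ p ^ k = 1 → ξ x = 1) (hξ' : ∀ x k, x ^ p ^ k = 1 → ξ' x = 1)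
    (hT : ∀ t ∈ T4 K, ∀ h, ξ ⟨t, h⟩ = sC (et K (ch hp4 (vc 23) t)))
    (hT' : ∀ t ∈ T4 K, ∀ h, ξ' ⟨t, h⟩ = sC (et K (ch hp4 (vc 14) t))) :
    classInner (indFun (PJ cs4 hp4.isCartan (T4 K) (X4 K) J4) fun t => (ξ t : ℂ))
      (indFun (PJ cs4 hp4.isCartan (T4 K) (X4 K) ∅) fun t => (ξ' t : ℂ)) = 8 := by
  have hb : ∀ i, b8 i < 24 := by decide
  have h := count h2 p b8 hb (s := 14) (by norm_num) hξ hξ' hT hT' (fun i => ?_) (fun i j u hu e => ?_) (fun r hr hp => ?_)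
  · exact_mod_cast h
  · rw [par_vc (hb i) (by norm_num)]
    revert i
    decide +kernel
  · rw [WJ_empty hu, map_one, Module.End.one_apply] at e
    have h3 : b8 i = b8 j := vec_inj hp4 (by rw [nr24]; exact hb i) (by rw [nr24]; exact hb j) e
    revert h3
    clear e
    revert i j
    decide
  · rw [par_vc hr (by norm_num), par14 r hr] at hp
    have h3 : ∀ r : ℕ, (r = 2 ∨ r = 3 ∨ r = 6 ∨ r = 9 ∨ r = 14 ∨ r = 17 ∨ r = 20 ∨ r = 21) → ∃ i, b8 i = r := by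
      rintro r (rfl | rfl | rfl | rfl | rfl | rfl | rfl | rfl) <;> decide +kernel
    obtain ⟨i, e⟩ := h3 r hp
    exact ⟨i, 1, one_mem _, by rw [map_one, Module.End.one_apply, e]⟩

theorem count7 [Fintype ↥(chevD4.group K)] (h2 : (2 : K) ≠ 0) (p : ℕ) [Fact p.Prime] [CharP K p]
    {ξ : ↥(PJ cs4 hp4.isCartan (T4 K) (X4 K) J4) →* ℂˣ} {ξ' : ↥(PJ cs4 hp4.isCartan (T4 K) (X4 K) {1}) →* ℂˣ}
    (hξ : ∀ x k, x ^ p ^ k = 1 → ξ x = 1) (hξ' : ∀ x k, x ^ p ^ k = 1 → ξ' x = 1)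
    (hT : ∀ t ∈ T4 K, ∀ h, ξ ⟨t, h⟩ = sC (et K (ch hp4 (vc 23) t)))
    (hT' : ∀ t ∈ T4 K, ∀ h, ξ' ⟨t, h⟩ = sC (et K (ch hp4 (vc 14) t))) :
    classInner (indFun (PJ cs4 hp4.isCartan (T4 K) (X4 K) J4) fun t => (ξ t : ℂ))
      (indFun (PJ cs4 hp4.isCartan (T4 K) (X4 K) {1}) fun t => (ξ' t : ℂ)) = 7 := by
  have hb : ∀ i, b7 i < 24 := by decide
  have h := count h2 p b7 hb (s := 14) (by norm_num) hξ hξ' hT hT' (fun i => ?_) (fun i j u hu e => ?_) (fun r hr hp => ?_)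
  · exact_mod_cast h
  · rw [par_vc (hb i) (by norm_num)]
    revert i
    decide +kernel
  · obtain ⟨s, hs, e1, e2⟩ := inv_orbit c1 (fun j (hj : j = 1) r hr => by rw [hj]; exact c1_inv r hr) hu (b7 i) (hb i)
    have h3 : b7 j = s := vec_inj hp4 (by rw [nr24]; exact hb j) (by rw [nr24]; exact hs) (e.symm.trans e1)
    rw [← h3] at e2
    revert e2
    clear h3 e e1
    revert i j
    decide +kernel
  · rw [par_vc hr (by norm_num), par14 r hr] at hp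
    have h3 : ∀ r : ℕ, (r = 2 ∨ r = 3 ∨ r = 6 ∨ r = 9 ∨ r = 14 ∨ r = 17 ∨ r = 20 ∨ r = 21) →
        ∃ i, b7 i = r ∨ rf 1 (b7 i) = r := by
      rintro r (rfl | rfl | rfl | rfl | rfl | rfl | rfl | rfl) <;> decide +kernel
    obtain ⟨i, e | e⟩ := h3 r hp
    · exact ⟨i, 1, one_mem _, by rw [map_one, Module.End.one_apply, e]⟩
    · exact ⟨i, cs4.simple 1, simple_mem_WJ cs4 rfl, by rw [rep_vc 1 (hb i), e]⟩

end Cfsg.Agent.H287.OC
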